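import Cfsg.Agent.Lib.Helper95.BalOM.Defs
import Cfsg.Agent.Lib.Helper66.OMinB
import Cfsg.Agent.Lib.Helper49.CDEvenMain
import Cfsg.Agent.Lib.Helper49.Lagr

set_option autoImplicit false

/-! Rung CLSC of the ladder BAL-OM: a similarity `G` with multiplier `μ` and `G² = -μ` preserves the
two classes. -/

namespace Cfsg.Agent.Lib.Helper95.BalOM

open QuadraticMap Module Matrix Cfsg.Agent.Lib.Helper49 Cfsg.Agent.Lib.Helper95
  Cfsg.Agent.Lib.Helper6.OA Cfsg.Agent.Lib.Helper66.OMin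

theorem clsc_lagr {K V : Type*} [Field K] [AddCommGroup V] [Module K V] [FiniteDimensional K V]
    (Q : QuadraticForm K V) (hQ : (polarBilin Q).Nondegenerate) (h2 : (2 : K) ≠ 0)
    (T : V →ₗ[K] V) (μ κ : K) (hμ : μ ≠ 0) (hκ : κ * κ = -μ) (hT : ∀ v, Q (T v) = μ * Q v)
    (hTT : ∀ v, T (T v) = (-μ) • v) :
    IsLagr Q (LinearMap.ker (T - κ • LinearMap.id)) ∧
      (LinearMap.ker (T - κ • LinearMap.id)).map T = LinearMap.ker (T - κ • LinearMap.id) := by
  have hκ0 : κ ≠ 0 := by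
    rintro rfl
    apply hμ
    linear_combination hκ
  have hmem : ∀ (c : K) v, v ∈ LinearMap.ker (T - c • LinearMap.id) ↔ T v = c • v := by
    intro c v
    simp [sub_eq_zero]
  have hsing : ∀ c : K, c * c = -μ → ∀ v ∈ LinearMap.ker (T - c • LinearMap.id), Q v = 0 := by
    intro c hc v hv
    rw [hmem] at hv
    have h1 := hT v
    rw [hv, QuadraticMap.map_smul, hc, smul_eq_mul] at h1
    have h3 : (2 * μ) * Q v = 0 := by linear_combination -h1
    exact (mul_eq_zero.1 h3).resolve_left (mul_ne_zero h2 hμ)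
  have hκ' : (-κ) * (-κ) = -μ := by rw [neg_mul_neg, hκ]
  have h1 := two_mul_finrank_le_of_le_orthogonal Q hQ _
    (fun _ hx _ hz => polar_eq_zero_of_singular (hsing κ hκ) hx hz)
  have h3 := two_mul_finrank_le_of_le_orthogonal Q hQ _
    (fun _ hx _ hz => polar_eq_zero_of_singular (hsing (-κ) hκ') hx hz)
  have htop : LinearMap.ker (T - κ • LinearMap.id) ⊔ LinearMap.ker (T - (-κ) • LinearMap.id) = ⊤ := by
    rw [eq_top_iff]
    intro v _
    have hv : v = (2 * κ)⁻¹ • (κ • v + T v) + (2 * κ)⁻¹ • (κ • v - T v) := by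
      rw [← smul_add]
      have : κ • v + T v + (κ • v - T v) = (2 * κ) • v := by
        rw [two_mul, add_smul]; abel
      rw [this, smul_smul, inv_mul_cancel₀ (mul_ne_zero h2 hκ0), one_smul]
    rw [hv]
    apply Submodule.add_mem_sup
    · apply Submodule.smul_mem
      rw [hmem, map_add, map_smul, hTT, ← hκ, smul_add, smul_smul]
      abel
    · apply Submodule.smul_mem
      rw [hmem, map_sub, map_smul, hTT, ← hκ, smul_sub, smul_smul, neg_smul, neg_mul, neg_smul]
      abel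
  have h4 := Submodule.finrank_add_le_finrank_add_finrank (LinearMap.ker (T - κ • LinearMap.id))
    (LinearMap.ker (T - (-κ) • LinearMap.id))
  rw [htop, finrank_top] at h4
  refine ⟨isLagr_of_finrank hQ (hsing κ hκ) (by omega), ?_⟩
  ext v
  constructor
  · rintro ⟨w, hw, rfl⟩
    have hw' := (hmem κ w).1 hw
    rw [hw']
    exact Submodule.smul_mem _ _ hw
  · intro hv
    refine ⟨κ⁻¹ • v, Submodule.smul_mem _ _ hv, ?_⟩
    rw [map_smul, (hmem κ v).1 hv, smul_smul, inv_mul_cancel₀ hκ0, one_smul]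

theorem clsc_sqrt {F K : Type*} [Field F] [Fintype F] [Field K] [Finite K] [Algebra F K]
    (hK : finrank F K = 2) (h2 : (2 : F) ≠ 0) (x : F) : ∃ κ : K, κ * κ = algebraMap F K x := by
  by_cases hx : x = 0
  · exact ⟨0, by rw [hx, map_zero, mul_zero]⟩
  cases nonempty_fintype K
  have h2K : (2 : K) ≠ 0 := by
    intro h
    apply h2
    apply (algebraMap F K).injective
    rw [map_zero, map_ofNat, h]
  have hchar : ringChar K ≠ 2 := by
    intro h
    apply h2K
    have := ringChar.Nat.cast_ringChar (R := K)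
    rw [h] at this
    exact_mod_cast this
  have hcharF : ringChar F ≠ 2 := by
    intro h
    apply h2
    have := ringChar.Nat.cast_ringChar (R := F)
    rw [h] at this
    exact_mod_cast this
  have hx' : algebraMap F K x ≠ 0 := by
    intro h
    apply hx
    apply (algebraMap F K).injective
    rw [h, map_zero]
  have hcard : Fintype.card K = Fintype.card F ^ 2 := by
    rw [← hK]
    exact Module.card_eq_pow_finrank
  have hodd : Fintype.card F % 2 = 1 := FiniteField.odd_card_of_char_ne_two hcharF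
  obtain ⟨κ, hκ⟩ := (FiniteField.isSquare_iff hchar hx').2 (by
    obtain ⟨j, hj⟩ : ∃ j, Fintype.card F = 2 * j + 1 := ⟨Fintype.card F / 2, by omega⟩
    have h3 : Fintype.card K / 2 = (Fintype.card F - 1) * (j + 1) := by
      rw [hcard, hj]
      have : (2 * j + 1) ^ 2 = 2 * (2 * j * (j + 1)) + 1 := by ring
      rw [this]
      have h5 : 2 * j + 1 - 1 = 2 * j := by omega
      rw [h5]
      omega
    rw [h3, ← map_pow, pow_mul, FiniteField.pow_card_sub_one_eq_one x hx, one_pow, map_one])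
  exact ⟨κ, hκ.symm⟩

universe u

variable {F : Type u} [Field F] [Fintype F]

/-- CLSC -/
theorem preserves_of_sq_neg (h2 : (2 : F) ≠ 0) {m : ℕ} (a b : F)
    (hab : ∀ z₁ z₂ : F, z₁ ^ 2 + a * z₁ * z₂ + b * z₂ ^ 2 = 0 → z₁ = 0 ∧ z₂ = 0)
    (G : GL ((Fin m ⊕ Fin m) ⊕ Fin 2) F) (μ : F) (hμ : μ ≠ 0)
    (hG : ∀ v, minusQF m F a b (linOf G v) = μ * minusQF m F a b v)
    (hGG : ∀ v, linOf G (linOf G v) = (-μ) • v) :
    Cfsg.PreservesSingularClassesMinus m a b
      (G : Matrix ((Fin m ⊕ Fin m) ⊕ Fin 2) ((Fin m ⊕ Fin m) ⊕ Fin 2) F) := by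
  obtain ⟨K, _, _, hK, hfin, hnd, -, -⟩ := exists_K (m := m) a b hab
  rw [presMinus_iff a b K hK, PK_iff]
  have hGO : G ∈ GO ⇑(minusQF m F a b) := ⟨Units.mk0 μ hμ, fun v => hG v⟩
  obtain ⟨κ, hκ⟩ := clsc_sqrt (K := K) hK h2 (-μ)
  have h2K : (2 : K) ≠ 0 := by
    intro h
    apply h2
    apply (algebraMap F K).injective
    rw [map_zero, map_ofNat, h]
  have hμK : algebraMap F K μ ≠ 0 := by
    intro h
    apply hμ
    apply (algebraMap F K).injective
    rw [h, map_zero]
  have hmat : G.1 * G.1 = (-μ) • (1 : Matrix ((Fin m ⊕ Fin m) ⊕ Fin 2) ((Fin m ⊕ Fin m) ⊕ Fin 2) F) := by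
    apply Matrix.mulVec_injective
    funext v
    have := hGG v
    rw [linOf_apply, linOf_apply, Matrix.mulVec_mulVec] at this
    rw [this, Matrix.smul_mulVec, Matrix.one_mulVec]
  have hmatK : (bcG K G).1 * (bcG K G).1 = (-(algebraMap F K μ)) •
      (1 : Matrix ((Fin m ⊕ Fin m) ⊕ Fin 2) ((Fin m ⊕ Fin m) ⊕ Fin 2) K) := by
    rw [bcG_coe, ← Matrix.map_mul, hmat]
    ext i j
    by_cases hij : i = j
    · subst hij; simp
    · simp [hij]
  obtain ⟨hL, hmap⟩ := clsc_lagr (minusQF m K (algebraMap F K a) (algebraMap F K b)) hnd h2K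
    (Matrix.toLin' (bcG K G).1) (algebraMap F K μ) κ hμK (by rw [hκ, map_neg])
    (fun w => by
      rw [Matrix.toLin'_apply, bcG_coe]
      exact sim_baseChange _ _ (minus_compat K) G.1 μ hG w)
    (fun w => by
      rw [Matrix.toLin'_apply, Matrix.toLin'_apply, Matrix.mulVec_mulVec, hmatK,
        Matrix.smul_mulVec, Matrix.one_mulVec])
  exact preserves_of_map_eq hnd hL ⟨bcG K G, bcG_mem a b K G hGO⟩ hmap

end Cfsg.Agent.Lib.Helper95.BalOM
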