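import Cfsg.Agent.Lib.Helper95.BalOM.Defs
import Cfsg.Agent.Lib.Helper6.OA.ClsGen
import Cfsg.Agent.Lib.Helper49.FixParity
import Cfsg.Agent.Lib.Helper49.HypPairs
import Cfsg.Agent.Lib.Helper49.RankParity

set_option autoImplicit false

/-! Rung CLSD of the ladder BAL-OM: an orthogonal involution that interchanges the two classes has
eigenspaces of odd dimension. -/

namespace Cfsg.Agent.Lib.Helper95.BalOM

open QuadraticMap Module Matrix Cfsg.Agent.Lib.Helper49 Cfsg.Agent.Lib.Helper95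
  Cfsg.Agent.Lib.Helper6.OA

variable {F : Type*} [Field F] [Fintype F]

set_option maxHeartbeats 400000 in
/-- CLSD -/
theorem odd_eig (h2 : (2 : F) ≠ 0) {m : ℕ} (hm : 3 ≤ m) (a b : F)
    (hab : ∀ z₁ z₂ : F, z₁ ^ 2 + a * z₁ * z₂ + b * z₂ ^ 2 = 0 → z₁ = 0 ∧ z₂ = 0)
    (G : GL ((Fin m ⊕ Fin m) ⊕ Fin 2) F)
    (hG : ∀ v, minusQF m F a b (linOf G v) = minusQF m F a b v)
    (hGG : ∀ v, linOf G (linOf G v) = v)
    (hnp : ¬ Cfsg.PreservesSingularClassesMinus m a b
      (G : Matrix ((Fin m ⊕ Fin m) ⊕ Fin 2) ((Fin m ⊕ Fin m) ⊕ Fin 2) F)) :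
    Odd (finrank F (eigP (linOf G))) ∧ Odd (finrank F (eigM (linOf G))) := by
  have hQ : (polarBilin (minusQF m F a b)).Nondegenerate :=
    minusQF_nondegenerate m F a b (minus_disc_ne_zero a b hab)
  obtain ⟨Ψ, hΨ1, -, hΨ3⟩ := exists_clsMinus hm hab
  have key : ∀ (vs : List (((Fin m ⊕ Fin m) ⊕ Fin 2) → F)), (∀ v ∈ vs, minusQF m F a b v ≠ 0) →
      ∀ h : ↥(Cfsg.isometryGroup F ⇑(minusQF m F a b)),
      isoEquiv (minusQF m F a b) h = reflProd (minusQF m F a b) vs →
      Ψ (iO (minusQF m F a b) h) = Multiplicative.ofAdd ((vs.length : ℕ) : ZMod 2) := by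
    intro vs
    induction vs with
    | nil =>
      intro _ h hh
      rw [reflProd_nil, MulEquiv.map_eq_one_iff] at hh
      rw [hh, map_one, map_one]
      simp
    | cons v vs ih =>
      intro hvs h hh
      have h1 : h = Cfsg.Agent.Lib.Helper18.refl (minusQF m F a b) v *
          (isoEquiv (minusQF m F a b)).symm (reflProd (minusQF m F a b) vs) := by
        apply (isoEquiv (minusQF m F a b)).injective
        rw [map_mul, MulEquiv.apply_symm_apply, isoEquiv_refl18, hh, reflProd_cons, reflProd_cons,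
          reflProd_nil, mul_one]
      rw [h1, map_mul, map_mul, hΨ3 v (hvs v List.mem_cons_self),
        ih (fun u hu => hvs u (List.mem_cons_of_mem _ hu)) _ (MulEquiv.apply_symm_apply _ _),
        ← ofAdd_add, List.length_cons]
      congr 1
      push_cast
      ring
  obtain ⟨g, hg⟩ : ∃ g : ↥(OG (minusQF m F a b)), ∀ v, g.1 v = linOf G v :=
    ⟨⟨linOf G, hG⟩, fun _ => rfl⟩
  obtain ⟨vs, hvs, hgv⟩ := exists_reflProd_eq (minusQF m F a b) h2 hQ g
  have hGmem : G ∈ Cfsg.isometryGroup F ⇑(minusQF m F a b) :=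
    (glEquiv_mem_iff (minusQF m F a b) G).1 hG
  obtain ⟨h₀, hh₀⟩ : ∃ h₀ : ↥(Cfsg.isometryGroup F ⇑(minusQF m F a b)), h₀.1 = G :=
    ⟨⟨G, hGmem⟩, rfl⟩
  have hiso : isoEquiv (minusQF m F a b) h₀ = reflProd (minusQF m F a b) vs := by
    rw [← hgv]
    apply Subtype.ext
    ext v : 1
    rw [isoEquiv_apply, hg, linOf_apply, hh₀]
  have h1 := key vs hvs h₀ hiso
  have hlen : ¬ Even vs.length := by
    intro he
    apply hnp
    have h3 : Ψ (iO (minusQF m F a b) h₀) = 1 := by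
      rw [h1, (ZMod.natCast_eq_zero_iff_even).2 he]; rfl
    have h4 := (hΨ1 _).1 h3
    rw [← hh₀]
    exact h4
  have hrange : ¬ Even (finrank F (LinearMap.range (dOG (minusQF m F a b) g))) := by
    rw [hgv, even_finrank_range_dOG_reflProd_iff _ hQ vs hvs]
    exact hlen
  have hM : LinearMap.range (dOG (minusQF m F a b) g) = eigM (linOf G) := by
    ext v
    rw [mem_eigM, LinearMap.mem_range]
    constructor
    · rintro ⟨x, rfl⟩
      rw [dOG_apply, hg, map_sub, hGG]; abel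
    · intro hv
      refine ⟨(-(2 : F)⁻¹) • v, ?_⟩
      rw [dOG_apply, hg, map_smul, hv, smul_neg, ← sub_eq_zero, neg_smul]
      have : -(-((2 : F)⁻¹ • v)) - -((2 : F)⁻¹ • v) - v = ((2 : F)⁻¹ + (2 : F)⁻¹ - 1) • v := by
        rw [sub_smul, add_smul, one_smul]; abel
      rw [this]
      have : (2 : F)⁻¹ + (2 : F)⁻¹ - 1 = 0 := by field_simp; norm_num
      rw [this, zero_smul]
  have hP : LinearMap.ker (dOG (minusQF m F a b) g) = eigP (linOf G) := by
    ext v
    rw [mem_ker_dOG, mem_eigP, hg]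
  have hsum := LinearMap.finrank_range_add_finrank_ker (dOG (minusQF m F a b) g)
  rw [hM, hP, Module.finrank_fintype_fun_eq_card] at hsum
  have hcard : Fintype.card ((Fin m ⊕ Fin m) ⊕ Fin 2) = 2 * m + 2 := by
    simp only [Fintype.card_sum, Fintype.card_fin]; ring
  rw [hM, Nat.not_even_iff_odd] at hrange
  refine ⟨?_, hrange⟩
  rw [Nat.odd_iff] at hrange ⊢
  omega

end Cfsg.Agent.Lib.Helper95.BalOM
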