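import Cfsg.Agent.Lib.Helper95.BalOM.Glue
import Cfsg.Agent.Lib.Helper95.BalOM.ClsC
import Cfsg.Agent.Lib.Helper95.BalOM.ClsD
import Cfsg.Agent.Lib.Helper64.BalOMCLSA
import Cfsg.Agent.Lib.Helper49.HypPairs
import Cfsg.Agent.Lib.Helper49.RankParity

set_option autoImplicit false

/-! Rung CLSB of the ladder BAL-OM: the involutions of `Aut(PΩ⁻)` outside `Inndiag`. -/

namespace Cfsg.Agent.Lib.Helper95.BalOM

open QuadraticMap Module Matrix Cfsg.Agent.Lib.Helper49 Cfsg.Agent.Lib.Helper95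
  Cfsg.Agent.Lib.Helper95.AutO
open Cfsg.Agent.Lib.Helper64.BalOM (sigma_eq_one)

variable {F : Type*} [Field F] [Fintype F]

/-- CLSB -/
theorem cls (h2 : (2 : F) ≠ 0) {m : ℕ} (hm : 3 ≤ m) (a b : F)
    (hab : ∀ z₁ z₂ : F, z₁ ^ 2 + a * z₁ * z₂ + b * z₂ ^ 2 = 0 → z₁ = 0 ∧ z₂ = 0)
    (htop : Cfsg.gammaPOmega F ⇑(minusQF m F a b) = ⊤)
    (x : MulAut (Cfsg.POmega F ⇑(minusQF m F a b))) (hord : orderOf x = 2)
    (hnot : ¬ ∃ g : GL ((Fin m ⊕ Fin m) ⊕ Fin 2) F,
      g ∈ Cfsg.Geo.quadSimilarityGroup (F := F) ⇑(minusQF m F a b) ∧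
      Cfsg.PreservesSingularClassesMinus m a b
        (g : Matrix ((Fin m ⊕ Fin m) ⊕ Fin 2) ((Fin m ⊕ Fin m) ⊕ Fin 2) F) ∧
      Cfsg.IsInducedBySemilinearPOmega ⇑(minusQF m F a b) g (RingEquiv.refl F) x) :
    ∃ G : ↥(Cfsg.Geo.quadSimilarityGroup ⇑(minusQF m F a b)),
      x = cGam ⇑(minusQF m F a b) (goIncl ⇑(minusQF m F a b) G) ∧
      (((∀ v, minusQF m F a b (linOf G.1 v) = minusQF m F a b v) ∧
          (∀ v, linOf G.1 (linOf G.1 v) = v) ∧
          Odd (finrank F (eigP (linOf G.1))) ∧ Odd (finrank F (eigM (linOf G.1)))) ∨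
        (∃ c : F, ¬ IsSquare c ∧ (∀ v, linOf G.1 (linOf G.1 v) = c • v) ∧
          ∀ v, minusQF m F a b (linOf G.1 v) = c * minusQF m F a b v)) := by
  have hQ : (polarBilin (minusQF m F a b)).Nondegenerate :=
    minusQF_nondegenerate m F a b (minus_disc_ne_zero a b hab)
  have hcard : Fintype.card ((Fin m ⊕ Fin m) ⊕ Fin 2) = 2 * m + 2 := by
    simp only [Fintype.card_sum, Fintype.card_fin]; ring
  have hd7 : 7 ≤ Fintype.card ((Fin m ⊕ Fin m) ⊕ Fin 2) := by omega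
  have hx : x ∈ (cGam ⇑(minusQF m F a b)).range := by
    rw [← gammaPOmega_eq_range, htop]; trivial
  obtain ⟨y, rfl⟩ := hx
  have hy2 : cGam ⇑(minusQF m F a b) y ^ 2 = 1 := by
    have := pow_orderOf_eq_one (cGam ⇑(minusQF m F a b) y)
    rwa [hord] at this
  have hσ : y.1.right = 1 := sigma_eq_one h2 hm a b hab y hy2
  have hyr : y ∈ (goIncl ⇑(minusQF m F a b)).range := by
    rw [range_goIncl]; exact hσ
  obtain ⟨G₀, rfl⟩ := hyr
  -- no similarity inducing `x` preserves the classes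
  have hnot' : ∀ G : ↥(Cfsg.Geo.quadSimilarityGroup ⇑(minusQF m F a b)),
      cGam ⇑(minusQF m F a b) (goIncl ⇑(minusQF m F a b) G₀) = cGam ⇑(minusQF m F a b) (goIncl ⇑(minusQF m F a b) G) →
      ¬ Cfsg.PreservesSingularClassesMinus m a b
        (G.1 : Matrix ((Fin m ⊕ Fin m) ⊕ Fin 2) ((Fin m ⊕ Fin m) ⊕ Fin 2) F) := by
    intro G hG hP
    apply hnot
    refine ⟨G.1, G.2, hP, ?_⟩
    rw [hG]
    exact cGam_induced ⇑(minusQF m F a b) (goIncl ⇑(minusQF m F a b) G)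
  -- the square of `G₀` is a scalar
  obtain ⟨-, l, hl⟩ := ker_cGam (minusQF m F a b) hQ hd7 (goIncl ⇑(minusQF m F a b) G₀ * goIncl ⇑(minusQF m F a b) G₀)
    (by rw [map_mul, ← pow_two]; exact hy2)
  have hGG : ∀ v, linOf G₀.1 (linOf G₀.1 v) = (l : F) • v := by
    intro v
    rw [← semiFun_goIncl, ← semiFun_goIncl, ← semiFun_mul, ← Subgroup.coe_mul]
    unfold semiFun
    rw [hl]
    have : (goIncl ⇑(minusQF m F a b) G₀ * goIncl ⇑(minusQF m F a b) G₀).1.right = 1 := by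
      rw [Subgroup.coe_mul, SemidirectProduct.mul_right, hσ, one_mul]
    rw [this]
    simp [Matrix.smul_mulVec]
  have hμ : ∀ v, (minusQF m F a b) (linOf G₀.1 v) = (mult ⇑(minusQF m F a b) G₀ : F) * (minusQF m F a b) v := fun v => mult_spec ⇑(minusQF m F a b) G₀ v
  set μ : F := (mult ⇑(minusQF m F a b) G₀ : F) with hμdef
  have hμ0 : μ ≠ 0 := (mult ⇑(minusQF m F a b) G₀).ne_zero
  obtain ⟨v₀, hv₀⟩ := exists_nonsing (minusQF m F a b) hQ (by omega)
  have hlμ : (l : F) = μ ∨ (l : F) = -μ := by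
    have h1 : (minusQF m F a b) (linOf G₀.1 (linOf G₀.1 v₀)) = μ * (μ * (minusQF m F a b) v₀) := by rw [hμ, hμ]
    rw [hGG, QuadraticMap.map_smul, smul_eq_mul] at h1
    have h3 : (l : F) * l = μ * μ := by
      apply mul_right_cancel₀ hv₀
      rw [h1]; ring
    exact mul_self_eq_mul_self_iff.1 h3
  by_cases hsq : IsSquare μ
  · obtain ⟨κ, hκ⟩ := hsq
    have hκ0 : κ ≠ 0 := by
      rintro rfl
      apply hμ0
      rw [hκ, mul_zero]
    have hyr : scalHom (minusQF m F a b) (Units.mk0 κ hκ0)⁻¹ * goIncl ⇑(minusQF m F a b) G₀ ∈ (goIncl ⇑(minusQF m F a b)).range := by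
      rw [range_goIncl]
      change (scalHom (minusQF m F a b) (Units.mk0 κ hκ0)⁻¹ * goIncl ⇑(minusQF m F a b) G₀).1.right = 1
      rw [Subgroup.coe_mul, SemidirectProduct.mul_right, hσ, scalHom_right, one_mul]
    obtain ⟨G, hG⟩ := hyr
    have hlin : ∀ v, linOf G.1 v = κ⁻¹ • linOf G₀.1 v := by
      intro v
      rw [← semiFun_goIncl, hG, Subgroup.coe_mul, semiFun_mul, semiFun_scalHom, semiFun_goIncl]
      simp
    have hxG : cGam ⇑(minusQF m F a b) (goIncl ⇑(minusQF m F a b) G₀) = cGam ⇑(minusQF m F a b) (goIncl ⇑(minusQF m F a b) G) := by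
      rw [hG, map_mul, cGam_scalHom, one_mul]
    have hiso : ∀ v, (minusQF m F a b) (linOf G.1 v) = (minusQF m F a b) v := by
      intro v
      rw [hlin, QuadraticMap.map_smul, hμ, hκ, smul_eq_mul]
      field_simp
    have hGG' : ∀ v, linOf G.1 (linOf G.1 v) = ((l : F) / μ) • v := by
      intro v
      rw [hlin, hlin, map_smul, hGG, smul_smul, smul_smul, hκ]
      congr 1
      field_simp
    rcases hlμ with h | h
    · refine ⟨G, hxG, Or.inl ⟨hiso, fun v => ?_, ?_⟩⟩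
      · rw [hGG', h, div_self hμ0, one_smul]
      · exact odd_eig h2 hm a b hab G.1 hiso (fun v => by rw [hGG', h, div_self hμ0, one_smul])
          (hnot' G hxG)
    · exfalso
      apply hnot' G hxG
      apply preserves_of_sq_neg h2 a b hab G.1 1 one_ne_zero
      · intro v
        rw [one_mul]; exact hiso v
      · intro v
        rw [hGG', h, neg_div, div_self hμ0]
  · rcases hlμ with h | h
    · exact ⟨G₀, rfl, Or.inr ⟨μ, hsq, fun v => by rw [hGG, h], hμ⟩⟩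
    · exfalso
      apply hnot' G₀ rfl
      exact preserves_of_sq_neg h2 a b hab G₀.1 μ hμ0 hμ (fun v => by rw [hGG, h])

end Cfsg.Agent.Lib.Helper95.BalOM
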