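import Cfsg.Agent.Lib.Helper95.AutO.Geo
import Cfsg.Agent.Lib.Helper95.BalOM.Core

set_option autoImplicit false

/-! Definitions for the ladder BAL-OM (S2733: failure of local balance, socle `PΩ⁻`). -/

namespace Cfsg.Agent.Lib.Helper95.BalOM

open QuadraticMap Module Cfsg.Agent.Lib.Helper49 Cfsg.Agent.Lib.Helper95 Cfsg.Agent.Lib.Helper95.AutO

variable {k W : Type*} [Field k] [AddCommGroup W] [Module k W]

/-- the `1`-eigenspace -/
def eigP (g : W ≃ₗ[k] W) : Submodule k W := LinearMap.ker ((g : W →ₗ[k] W) - LinearMap.id)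

/-- the `-1`-eigenspace -/
def eigM (g : W ≃ₗ[k] W) : Submodule k W := LinearMap.ker ((g : W →ₗ[k] W) + LinearMap.id)

theorem mem_eigP {g : W ≃ₗ[k] W} {v : W} : v ∈ eigP g ↔ g v = v := by
  simp [eigP, sub_eq_zero]

theorem mem_eigM {g : W ≃ₗ[k] W} {v : W} : v ∈ eigM g ↔ g v = -v := by
  simp [eigM, add_eq_zero_iff_eq_neg]

/-- geometric form of `HI 2`: a subgroup `L` of `C_{O(Q)}(g)`, normalised by `C_{O(Q)}(g)`, all of
whose involutions are scalars, has exponent two. -/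
def AHI (Q : QuadraticForm k W) (g : W ≃ₗ[k] W) : Prop :=
  ∀ L : Subgroup ↥(OG Q), (∀ x ∈ L, ∀ v, x.1 (g v) = g (x.1 v)) →
    (∀ t : ↥(OG Q), (∀ v, t.1 (g v) = g (t.1 v)) → ∀ x ∈ L, t * x * t⁻¹ ∈ L) →
    (∀ ν ∈ L, ν * ν = 1 → ∃ c : k, ∀ v, ν.1 v = c • v) → ∀ x ∈ L, x * x = 1

/-- geometric form of `HII 2`: a semisimilarity commuting with `C_{Ω(Q)}(g)` is a scalar or a scalar
times `g`. -/
def AR (Q : QuadraticForm k W) (g : W ≃ₗ[k] W) : Prop :=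
  ∀ (Ψ : W → W) (τ : k ≃+* k) (e : k), e ≠ 0 → (∀ x y, Ψ (x + y) = Ψ x + Ψ y) →
    (∀ (a : k) v, Ψ (a • v) = τ a • Ψ v) → (∀ v, Q (Ψ v) = e * τ (Q v)) →
    (∀ t ∈ commutator ↥(OG Q), (∀ v, t.1 (g v) = g (t.1 v)) → ∀ v, Ψ (t.1 v) = t.1 (Ψ v)) →
    τ = 1 ∧ ∃ φ : k, (∀ v, Ψ v = φ • v) ∨ (∀ v, Ψ v = φ • g v)

/-- the linear equivalence of an invertible matrix -/
noncomputable def linOf {ι : Type} [Fintype ι] [DecidableEq ι] {F : Type*} [Field F]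
    (G : Matrix.GeneralLinearGroup ι F) : (ι → F) ≃ₗ[F] (ι → F) := glEquiv ι F G

theorem linOf_apply {ι : Type} [Fintype ι] [DecidableEq ι] {F : Type*} [Field F]
    (G : Matrix.GeneralLinearGroup ι F) (v : ι → F) :
    linOf G v = Matrix.mulVec (G : Matrix ι ι F) v := rfl

end Cfsg.Agent.Lib.Helper95.BalOM
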