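import Cfsg.Agent.Lib.Helper66.OMinE

set_option autoImplicit false

/-! Rung T1 of the ladder BAL-OM: an automorphism of odd prime order of `PΩ⁻` outside `Inndiag` is a
field automorphism. -/

namespace Cfsg.Agent.Lib.Helper95.BalOM

open Matrix QuadraticMap Module
open scoped MatrixGroups
open Cfsg.Agent.Lib.Helper49 (minusQF minusQF_coe GamL GamO semiFun glMap coe_glMap cGam
  cGam_induced eq_cGam_of_induced mem_GamO minusQF_nondegenerate ker_cGam)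
open Cfsg.Agent.Lib.Helper6.OA (GO)
open Cfsg.Agent.Lib.Helper66.OGrp (left_mem_GO pow_right)
open Cfsg.Agent.Lib.Helper66.OMin

theorem ringAut_pow_fix {F : Type*} [Field F] (τ : F ≃+* F) {ρ : F} (h : τ ρ = ρ) (k : ℕ) :
    (τ ^ k) ρ = ρ := by
  induction k with
  | zero => simp
  | succ k ih => rw [pow_succ, RingAut.mul_apply, h, ih]

/-- an anisotropic binary form with coefficients fixed by an automorphism of odd order -/
theorem exists_fixed_aniso {F : Type*} [Field F] [Fintype F] (σ : F ≃+* F) {p : ℕ} (hp : Odd p)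
    (hσp : σ ^ p = 1) :
    ∃ b' : F, σ b' = b' ∧
      ∀ z₁ z₂ : F, z₁ ^ 2 + 1 * z₁ * z₂ + b' * z₂ ^ 2 = 0 → z₁ = 0 ∧ z₂ = 0 := by
  classical
  let S := {t : F // σ t = t}
  let f : S → S := fun t => ⟨t.1 ^ 2 + t.1, by rw [map_add, map_pow, t.2]⟩
  have hninj : ¬ Function.Injective f := by
    intro h
    have h1 : f ⟨0, map_zero σ⟩ = f ⟨-1, by rw [map_neg, map_one]⟩ := by
      apply Subtype.ext
      change (0 : F) ^ 2 + 0 = (-1) ^ 2 + -1
      ring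
    have h2 := congrArg Subtype.val (h h1)
    have h3 : (0 : F) = -1 := h2
    have h4 : (1 : F) = 0 := by linear_combination h3
    exact one_ne_zero h4
  have hnsurj : ¬ Function.Surjective f := fun h => hninj (Finite.injective_iff_surjective.2 h)
  rw [Function.Surjective] at hnsurj
  push Not at hnsurj
  obtain ⟨c, hc⟩ := hnsurj
  refine ⟨-c.1, by rw [map_neg, c.2], fun z₁ z₂ hz => ?_⟩
  by_cases hz2 : z₂ = 0
  · subst hz2
    refine ⟨?_, rfl⟩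
    have : z₁ ^ 2 = 0 := by linear_combination hz
    exact pow_eq_zero_iff (two_ne_zero) |>.1 this
  exfalso
  set ρ := z₁ / z₂ with hρ
  have h1 : ρ ^ 2 + ρ = c.1 := by
    rw [hρ]
    field_simp
    linear_combination hz
  have h2 : (σ ρ) ^ 2 + σ ρ = c.1 := by
    rw [← map_pow, ← map_add, h1, c.2]
  have hfix : σ ρ = ρ → False := fun h => hc ⟨ρ, h⟩ (Subtype.ext h1)
  have h3 : (σ ρ - ρ) * (σ ρ + ρ + 1) = 0 := by linear_combination h2 - h1
  rcases mul_eq_zero.1 h3 with h | h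
  · exact hfix (sub_eq_zero.1 h)
  · have h4 : σ ρ = -1 - ρ := by linear_combination h
    have h5 : (σ ^ 2) ρ = ρ := by
      rw [pow_two, RingAut.mul_apply, h4, map_sub, map_neg, map_one, h4]
      ring
    obtain ⟨k, hk⟩ := hp
    have h6 : (σ ^ p) ρ = σ ρ := by
      rw [hk, pow_succ', RingAut.mul_apply, pow_mul, ringAut_pow_fix _ h5]
    rw [hσp] at h6
    exact hfix h6.symm

/-- a parity argument -/
theorem mem_of_parity {Γ : Type*} [Group Γ] (N : Subgroup Γ) [N.Normal] (d Φ : Γ) {p : ℕ}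
    (hp : Odd p) (hdd : d * d ∈ N) (hcomm : Φ * d * Φ⁻¹ * d⁻¹ ∈ N) (h1 : (d * Φ) ^ p ∈ N)
    (h2 : Φ ^ p ∈ N) : d ∈ N := by
  rw [← QuotientGroup.eq_one_iff] at hdd hcomm h1 h2 ⊢
  simp only [QuotientGroup.mk_mul, QuotientGroup.mk_pow, QuotientGroup.mk_inv] at hdd hcomm h1 h2
  set D : Γ ⧸ N := (d : Γ ⧸ N)
  set P : Γ ⧸ N := (Φ : Γ ⧸ N)
  have hc : Commute D P := by
    have : P * D = D * P := by
      calc P * D = P * D * P⁻¹ * D⁻¹ * (D * P) := by group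
        _ = D * P := by rw [hcomm, one_mul]
    exact this.symm
  rw [hc.mul_pow, h2, mul_one] at h1
  obtain ⟨k, hk⟩ := hp
  rw [hk, pow_succ, pow_mul, pow_two, hdd, one_pow, one_mul] at h1
  exact h1

universe u

variable {F : Type u} [Field F] [Fintype F] {m : ℕ}

section DMlemmas

variable (a b : F)
  (hab : ∀ z₁ z₂ : F, z₁ ^ 2 + a * z₁ * z₂ + b * z₂ ^ 2 = 0 → z₁ = 0 ∧ z₂ = 0)

theorem mul_mem_DM_iff (γ γ' : ↥(GamO ⇑(minusQF m F a b))) (h : γ.1.right = 1)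
    (h' : γ'.1.right = 1) : γ * γ' ∈ DM a b hab ↔ (γ ∈ DM a b hab ↔ γ' ∈ DM a b hab) := by
  rw [mem_DM, mem_DM, mem_DM]
  have h1 : (γ * γ').1.right = 1 := by
    show (γ.1 * γ'.1).right = 1
    rw [SemidirectProduct.mul_right, h, h', one_mul]
  have h2 : (γ * γ').1.left = γ.1.left * γ'.1.left := by
    show (γ.1 * γ'.1).left = _
    rw [SemidirectProduct.mul_left, h, map_one, MulAut.one_apply]
  rw [h2, presM_mul a b hab _ _ (left_mem_GO _ _ γ.2 h) (left_mem_GO _ _ γ'.2 h')]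
  simp only [h, h', h1, true_and]

end DMlemmas

set_option maxHeartbeats 3200000 in
theorem field_class_qf (hm : 3 ≤ m) (a b : F)
    (hab : ∀ z₁ z₂ : F, z₁ ^ 2 + a * z₁ * z₂ + b * z₂ ^ 2 = 0 → z₁ = 0 ∧ z₂ = 0)
    (x : MulAut (Cfsg.POmega F ⇑(minusQF m F a b))) {p : ℕ} (hp : p.Prime) (hp2 : p ≠ 2)
    (hord : orderOf x = p)
    (hnot : ¬ ∃ g : GL ((Fin m ⊕ Fin m) ⊕ Fin 2) F,
      g ∈ Cfsg.Geo.quadSimilarityGroup (F := F) ⇑(minusQF m F a b) ∧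
      Cfsg.PreservesSingularClassesMinus m a b
        (g : Matrix ((Fin m ⊕ Fin m) ⊕ Fin 2) ((Fin m ⊕ Fin m) ⊕ Fin 2) F) ∧
      Cfsg.IsInducedBySemilinearPOmega ⇑(minusQF m F a b) g (RingEquiv.refl F) x) :
    ∃ (a' b' : F) (Q' : (((Fin m ⊕ Fin m) ⊕ Fin 2) → F) → F),
      Q' = Cfsg.quadFormMinus m F a' b' ∧
      ∃ (ψ : Cfsg.POmega F ⇑(minusQF m F a b) ≃* Cfsg.POmega F Q') (σ : F ≃+* F),
      (∀ z₁ z₂ : F, z₁ ^ 2 + a' * z₁ * z₂ + b' * z₂ ^ 2 = 0 → z₁ = 0 ∧ z₂ = 0) ∧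
      σ ≠ RingEquiv.refl F ∧ σ a' = a' ∧ σ b' = b' ∧
      Cfsg.IsFieldAutPOmegaOf Q' σ ((ψ.symm.trans x).trans ψ) := by
  have hodd : Odd p := hp.odd_of_ne_two hp2
  have hQ : (polarBilin (minusQF m F a b)).Nondegenerate :=
    minusQF_nondegenerate m F a b (Cfsg.Agent.Lib.Helper49.minus_disc_ne_zero a b hab)
  have hcard : 7 ≤ Fintype.card ((Fin m ⊕ Fin m) ⊕ Fin 2) := by
    simp only [Fintype.card_sum, Fintype.card_fin]; omega
  obtain ⟨y, rfl⟩ := cGam_surjective hm a b hab x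
  obtain ⟨σ, hσ⟩ : ∃ σ, σ = y.1.right := ⟨_, rfl⟩
  have hxp : cGam ⇑(minusQF m F a b) y ^ p = 1 := by rw [← hord]; exact pow_orderOf_eq_one _
  -- `σ ≠ 1`
  have hσ1 : σ ≠ 1 := by
    intro h1
    have hy1 : y.1.right = 1 := by rw [← hσ, h1]
    have hyy : y * y ∈ DM a b hab := (mul_mem_DM_iff a b hab y y hy1 hy1).2 Iff.rfl
    obtain ⟨k, hk⟩ := hodd
    have hγ : (y * y) ^ (k + 1) ∈ DM a b hab := pow_mem hyy _
    have hx : cGam ⇑(minusQF m F a b) ((y * y) ^ (k + 1)) = cGam ⇑(minusQF m F a b) y := by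
      rw [← pow_two, ← pow_mul, map_pow]
      have : 2 * (k + 1) = p + 1 := by omega
      rw [this, pow_succ, hxp, one_mul]
    apply hnot
    refine ⟨((y * y) ^ (k + 1)).1.left, left_mem_GO _ _ ((y * y) ^ (k + 1)).2 hγ.1, hγ.2, ?_⟩
    have := cGam_induced _ ((y * y) ^ (k + 1))
    rw [hγ.1, hx] at this
    exact this
  have hσp : σ ^ p = 1 := by
    have h1 : cGam ⇑(minusQF m F a b) (y ^ p) = 1 := by rw [map_pow]; exact hxp
    have h2 := (ker_cGam _ hQ hcard (y ^ p) h1).1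
    have h3 : (y.1 ^ p).right = 1 := h2
    rw [pow_right] at h3
    rw [hσ]; exact h3
  have := Fact.mk hp
  have hσord : orderOf σ = p := orderOf_eq_prime hσp hσ1
  obtain ⟨b', hb', hab'⟩ := exists_fixed_aniso σ hodd hσp
  have hQ' : (polarBilin (minusQF m F 1 b')).Nondegenerate :=
    minusQF_nondegenerate m F 1 b' (Cfsg.Agent.Lib.Helper49.minus_disc_ne_zero 1 b' hab')
  obtain ⟨B, e, hB⟩ := exists_sim_minus (m := m) a b 1 b' hab hab'
  obtain ⟨ψ₀, hψ₀⟩ := Cfsg.Agent.Lib.Helper74.OPsi.exists_psi0 ⇑(minusQF m F a b)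
    ⇑(minusQF m F 1 b') B e hB
  obtain ⟨y', hy'⟩ : ∃ y' : ↥(GamO ⇑(minusQF m F 1 b')),
      y'.1 = SemidirectProduct.inl B * y.1 * (SemidirectProduct.inl B)⁻¹ :=
    ⟨⟨_, conj_mem_GamO _ _ B e hB y.1 y.2⟩, rfl⟩
  have hx' := hψ₀ y y' hy'
  have hy'r : y'.1.right = σ := by
    rw [hy', hσ]; simp
  obtain ⟨Φ, hΦ⟩ : ∃ Φ, Φ = gS1 _ σ (hσQ_minus (m := m) 1 b' σ (map_one σ) hb') := ⟨_, rfl⟩
  have hΦr : Φ.1.right = σ := by rw [hΦ]; rfl
  have hΦl : Φ.1.left = 1 := by rw [hΦ]; rfl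
  obtain ⟨K, hK⟩ : ∃ K : MulAut (Cfsg.POmega F ⇑(minusQF m F a b)) ≃*
      MulAut (Cfsg.POmega F ⇑(minusQF m F 1 b')), ∀ β, K β = (ψ₀.symm.trans β).trans ψ₀ :=
    ⟨MulAut.congr ψ₀, fun β => rfl⟩
  have hKx : K (cGam ⇑(minusQF m F a b) y) = cGam ⇑(minusQF m F 1 b') y' := by
    rw [hK]
    ext t
    rw [MulEquiv.trans_apply, MulEquiv.trans_apply, hx', MulEquiv.apply_symm_apply]
  have hy'p : cGam ⇑(minusQF m F 1 b') y' ^ p = 1 := by
    rw [← hKx, ← map_pow, hxp, map_one]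
  obtain ⟨d, hd⟩ : ∃ d, d = y' * Φ⁻¹ := ⟨_, rfl⟩
  have hdΦ : d * Φ = y' := by rw [hd]; exact inv_mul_cancel_right y' Φ
  have hdr : d.1.right = 1 := by
    rw [hd]
    show (y'.1 * Φ.1⁻¹).right = 1
    rw [SemidirectProduct.mul_right, SemidirectProduct.inv_right, hy'r, hΦr, mul_inv_cancel]
  have := DM_normal (m := m) 1 b' hab'
  have hdDM : d ∈ DM 1 b' hab' := by
    apply mem_of_parity (DM 1 b' hab') d Φ hodd
    · exact (mul_mem_DM_iff 1 b' hab' d d hdr hdr).2 Iff.rfl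
    · have hr1 : (Φ * d * Φ⁻¹).1.right = 1 := by
        show (Φ.1 * d.1 * Φ.1⁻¹).right = 1
        rw [SemidirectProduct.mul_right, SemidirectProduct.mul_right, SemidirectProduct.inv_right,
          hdr, mul_one, mul_inv_cancel]
      have hr2 : (d⁻¹).1.right = 1 := by
        show (d.1⁻¹).right = 1
        rw [SemidirectProduct.inv_right, hdr, inv_one]
      rw [mul_mem_DM_iff 1 b' hab' _ _ hr1 hr2, inv_mem_iff]
      constructor
      · intro h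
        have := (DM_normal (m := m) 1 b' hab').conj_mem _ h Φ⁻¹
        have e1 : Φ⁻¹ * (Φ * d * Φ⁻¹) * Φ⁻¹⁻¹ = d := by
          rw [inv_inv, mul_assoc Φ d, inv_mul_cancel_left, inv_mul_cancel_right]
        rwa [e1] at this
      · intro h
        exact (DM_normal (m := m) 1 b' hab').conj_mem _ h Φ
    · rw [hdΦ]
      have h1 : cGam ⇑(minusQF m F 1 b') (y' ^ p) = 1 := by rw [map_pow]; exact hy'p
      obtain ⟨h2, c, hc⟩ := ker_cGam _ hQ' hcard (y' ^ p) h1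
      exact ⟨h2, presM_scalar 1 b' hab' _ c c.ne_zero hc⟩
    · have : Φ ^ p = 1 := by
        apply Subtype.ext
        rw [hΦ]
        show (SemidirectProduct.inr σ : GamL ((Fin m ⊕ Fin m) ⊕ Fin 2) F) ^ p = 1
        rw [← map_pow, hσp, map_one]
      rw [this]
      exact one_mem _
  obtain ⟨h, -, hh⟩ := core_minus hm 1 b' hab' σ (map_one σ) hb' p hp.pos hσord d hdDM
    (by rw [← hΦ, hdΦ]; exact hy'p)
  rw [← hΦ, hdΦ] at hh
  refine ⟨1, b', _, minusQF_coe m F 1 b', ψ₀.trans (cGam ⇑(minusQF m F 1 b') h).symm, σ, hab',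
    hσ1, map_one σ, hb', ?_⟩
  have hfin : ((ψ₀.trans (cGam ⇑(minusQF m F 1 b') h).symm).symm.trans
      (cGam ⇑(minusQF m F a b) y)).trans (ψ₀.trans (cGam ⇑(minusQF m F 1 b') h).symm) =
      cGam ⇑(minusQF m F 1 b') Φ := by
    ext t
    simp only [MulEquiv.trans_apply, MulEquiv.symm_trans_apply, MulEquiv.symm_symm]
    rw [hx', MulEquiv.apply_symm_apply, hh, map_mul, map_mul, map_inv, MulAut.mul_apply,
      MulAut.mul_apply, MulAut.inv_apply_self]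
    exact MulEquiv.symm_apply_apply _ _
  rw [hfin]
  intro s s' hs
  apply cGam_induced _ Φ
  rw [hs, hΦl, hΦr]
  simp

/-- T1 -/
theorem field_class_of_odd (hm : 3 ≤ m) (a b : F)
    (hab : ∀ z₁ z₂ : F, z₁ ^ 2 + a * z₁ * z₂ + b * z₂ ^ 2 = 0 → z₁ = 0 ∧ z₂ = 0)
    (x : MulAut (Cfsg.POmega F (Cfsg.quadFormMinus m F a b))) {p : ℕ} (hp : p.Prime) (hp2 : p ≠ 2)
    (hord : orderOf x = p) (hnot : ¬ Cfsg.IsInnerDiagonalAutPOmegaMinus m a b x) :
    Cfsg.IsFieldAutClassPOmegaMinus m x := by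
  have key : ∀ (Qf : (((Fin m ⊕ Fin m) ⊕ Fin 2) → F) → F), Qf = Cfsg.quadFormMinus m F a b →
      (∀ x : MulAut (Cfsg.POmega F Qf), orderOf x = p →
        (¬ ∃ g : GL ((Fin m ⊕ Fin m) ⊕ Fin 2) F,
          g ∈ Cfsg.Geo.quadSimilarityGroup (F := F) Qf ∧
          Cfsg.PreservesSingularClassesMinus m a b
            (g : Matrix ((Fin m ⊕ Fin m) ⊕ Fin 2) ((Fin m ⊕ Fin m) ⊕ Fin 2) F) ∧
          Cfsg.IsInducedBySemilinearPOmega Qf g (RingEquiv.refl F) x) →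
        ∃ (a' b' : F) (Q' : (((Fin m ⊕ Fin m) ⊕ Fin 2) → F) → F),
          Q' = Cfsg.quadFormMinus m F a' b' ∧
          ∃ (ψ : Cfsg.POmega F Qf ≃* Cfsg.POmega F Q') (σ : F ≃+* F),
          (∀ z₁ z₂ : F, z₁ ^ 2 + a' * z₁ * z₂ + b' * z₂ ^ 2 = 0 → z₁ = 0 ∧ z₂ = 0) ∧
          σ ≠ RingEquiv.refl F ∧ σ a' = a' ∧ σ b' = b' ∧
          Cfsg.IsFieldAutPOmegaOf Q' σ ((ψ.symm.trans x).trans ψ)) →
      Cfsg.IsFieldAutClassPOmegaMinus m x := by
    rintro _ rfl h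
    obtain ⟨a', b', _, rfl, ψ, σ, h1, h2, h3, h4, h5⟩ := h x hord hnot
    exact ⟨a', b', ψ, σ, h1, h2, h3, h4, h5⟩
  exact key _ (minusQF_coe m F a b) (fun x hord hnot => field_class_qf hm a b hab x hp hp2 hord hnot)

end Cfsg.Agent.Lib.Helper95.BalOM
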