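import Cfsg.Agent.Lib.Helper95.BalOM.Defs
import Cfsg.Agent.Lib.Helper49.GamO6

set_option autoImplicit false

/-! Rungs GH1, GH2 of the ladder BAL-OM: from the geometric statements `AHI`, `AR` to `HI 2`, `HII 2`
for the automorphism of `PΩ(Q)` induced by a similarity. -/

namespace Cfsg.Agent.Lib.Helper95.BalOM

open QuadraticMap Module Matrix Cfsg.Agent.Lib.Helper49 Cfsg.Agent.Lib.Helper95
  Cfsg.Agent.Lib.Helper95.AutO Cfsg.Agent.Lib.Helper29.AutO

section glue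

variable {ι : Type} [Fintype ι] [DecidableEq ι] {F : Type*} [Field F]

theorem gamL_ext (x x' : GamL ι F) (hr : x.right = x'.right)
    (hs : ∀ v, semiFun x v = semiFun x' v) : x = x' := by
  ext1
  · apply Units.ext
    apply Matrix.mulVec_injective
    funext v
    have := hs (fun i => x.right.symm (v i))
    unfold semiFun at this
    rw [← hr] at this
    simpa using this
  · exact hr

variable [Fintype F]
variable (Q : QuadraticForm F (ι → F))

theorem semiFun_scalHom (c : Fˣ) (v : ι → F) : semiFun (scalHom Q c).1 v = (c : F) • v := by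
  unfold semiFun
  rw [scalHom_left, scalHom_right]
  simp [Matrix.smul_mulVec]

theorem semiFun_goIncl (G : ↥(Cfsg.Geo.quadSimilarityGroup ⇑Q)) (v : ι → F) :
    semiFun (goIncl ⇑Q G).1 v = linOf G.1 v := by
  rw [goIncl_coe, semiFun_inl, linOf_apply]

/-- an element of `Ω` commuting with `G` gives a fixed point of the automorphism induced by `G` -/
theorem mk_mem_fixS (G : ↥(Cfsg.Geo.quadSimilarityGroup ⇑Q)) (s : ↥(Cfsg.Omega F ⇑Q))
    (hs : ∀ v, ((s.1.1 : GL ι F) : Matrix ι ι F) *ᵥ (linOf G.1 v) =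
      linOf G.1 (((s.1.1 : GL ι F) : Matrix ι ι F) *ᵥ v)) :
    (QuotientGroup.mk s : Cfsg.POmega F ⇑Q) ∈ fixS (cGam ⇑Q (goIncl ⇑Q G)) := by
  rw [mem_fixS, cGam_mk]
  congr 1
  apply Subtype.ext
  apply Subtype.ext
  rw [charRestrict_apply_coe, actO_apply_coe]
  apply Units.ext
  apply Matrix.mulVec_injective
  funext v
  have h1 := actGL_mulVec (goIncl ⇑Q G).1 s.1.1 (semiFun (goIncl ⇑Q G).1⁻¹ v)
  rw [semiFun_semiFun_inv, semiFun_goIncl, ← hs, ← semiFun_goIncl, semiFun_semiFun_inv] at h1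
  exact h1

/-- if `cGam y` fixes the class of `s`, then `y s y⁻¹ = ± s` -/
theorem act_of_fixed (hQ : (polarBilin Q).Nondegenerate) (hd : 7 ≤ Fintype.card ι)
    (x : ↥(GamO ⇑Q)) (s : ↥(Cfsg.Omega F ⇑Q))
    (hx : cGam ⇑Q x (QuotientGroup.mk s) = QuotientGroup.mk s) :
    ∃ c : F, c * c = 1 ∧ ∀ v, ((actGL x.1 s.1.1 : GL ι F) : Matrix ι ι F) *ᵥ v =
      c • (((s.1.1 : GL ι F) : Matrix ι ι F) *ᵥ v) := by
  have h1 := cGam_mk ⇑Q x s
  rw [hx] at h1
  have h2 := QuotientGroup.eq.1 h1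
  obtain ⟨c, hc, h3⟩ := center_Omega_mulVec Q hQ hd _ h2
  refine ⟨c, hc, fun v => ?_⟩
  have h4 := h3 v
  simp only [Subgroup.coe_mul, Subgroup.coe_inv, InvMemClass.coe_inv, charRestrict_apply_coe,
    actO_apply_coe, Units.val_mul] at h4
  rw [← Matrix.mulVec_mulVec] at h4
  have h5 := congrArg (fun u => ((s.1.1 : GL ι F) : Matrix ι ι F) *ᵥ u) h4
  simp only [Matrix.mulVec_mulVec, ← Units.val_mul, mul_inv_cancel, Units.val_one,
    Matrix.one_mulVec, Matrix.mulVec_smul] at h5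
  rwa [mul_inv_cancel_left] at h5

theorem map_of_sq_one (σ : F ≃+* F) {c : F} (hc : c * c = 1) : σ c = c := by
  rcases mul_self_eq_one_iff.1 hc with rfl | rfl
  · simp
  · simp

/-- GH2 -/
theorem glue_HII (h2 : (2 : F) ≠ 0) (hQ : (polarBilin Q).Nondegenerate) (hd : 7 ≤ Fintype.card ι)
    (htop : Cfsg.gammaPOmega F ⇑Q = ⊤)
    (G : ↥(Cfsg.Geo.quadSimilarityGroup ⇑Q)) (hG2 : cGam ⇑Q (goIncl ⇑Q G) ^ 2 = 1)
    (h : AR Q (linOf G.1)) :
    HII 2 (cGam ⇑Q (goIncl ⇑Q G)) := by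
  intro α hfix hodd
  have hα : α ∈ (cGam ⇑Q).range := by
    rw [← gammaPOmega_eq_range, htop]; trivial
  obtain ⟨y, rfl⟩ := hα
  obtain ⟨cy, hcy⟩ := (mem_GamO ⇑Q).1 y.2
  have hcomm : ∀ t ∈ commutator ↥(OG Q), (∀ v, t.1 (linOf G.1 v) = linOf G.1 (t.1 v)) →
      ∃ c : F, c * c = 1 ∧ ∀ v, semiFun y.1 (t.1 v) = c • t.1 (semiFun y.1 v) := by
    intro t ht htG
    set s : ↥(Cfsg.Omega F ⇑Q) := (omegaEquiv Q).symm ⟨t, ht⟩ with hs
    have hst : ∀ u, ((s.1.1 : GL ι F) : Matrix ι ι F) *ᵥ u = t.1 u := by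
      intro u
      rw [← omegaEquiv_apply, hs, MulEquiv.apply_symm_apply]
    have hmem := mk_mem_fixS Q G s (fun v => by rw [hst, hst, htG])
    obtain ⟨c, hc, h3⟩ := act_of_fixed Q hQ hd y s (hfix _ hmem)
    refine ⟨c, hc, fun v => ?_⟩
    rw [← hst, ← actGL_mulVec, h3, hst]
  obtain ⟨hτ, φ, hφ⟩ := h (fun v => semiFun y.1 (semiFun y.1 v)) (y.1.right * y.1.right)
    ((cy : F) * y.1.right (cy : F)) (mul_ne_zero cy.ne_zero (by simp))
    (fun a b => by rw [semiFun_add, semiFun_add])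
    (fun a v => by rw [semiFun_smul, semiFun_smul]; rfl)
    (fun v => by
      rw [hcy, hcy, map_mul, mul_assoc]; rfl)
    (fun t ht htG v => by
      obtain ⟨c, hc, h3⟩ := hcomm t ht htG
      rw [h3, semiFun_smul, h3, map_of_sq_one _ hc, smul_smul, hc, one_smul])
  obtain ⟨v₀, hv₀⟩ := exists_nonsing Q hQ (by omega)
  have hφ0 : φ ≠ 0 := by
    rintro rfl
    have h0 : semiFun y.1 (semiFun y.1 v₀) = 0 := by
      rcases hφ with hφ | hφ
      · rw [hφ, zero_smul]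
      · rw [hφ, zero_smul]
    have h1 : v₀ = 0 := by
      have := congrArg (fun u => semiFun y.1⁻¹ (semiFun y.1⁻¹ u)) h0
      simp only [semiFun_inv_semiFun] at this
      rw [this]
      have hz : ∀ x : GamL ι F, semiFun x 0 = 0 := fun x => by
        have := semiFun_smul x 0 0
        simpa using this
      rw [hz, hz]
    rw [h1] at hv₀
    simp at hv₀
  have hsq : cGam ⇑Q y ^ 2 = 1 ∨ cGam ⇑Q y ^ 2 = cGam ⇑Q (goIncl ⇑Q G) := by
    rcases hφ with hφ | hφ
    · left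
      have : y * y = scalHom Q (Units.mk0 φ hφ0) := by
        apply Subtype.ext
        apply gamL_ext
        · rw [scalHom_right]; exact hτ
        · intro v
          rw [semiFun_scalHom, Subgroup.coe_mul, semiFun_mul, hφ]
          rfl
      rw [pow_two, ← map_mul, this, cGam_scalHom]
    · right
      have : y * y = scalHom Q (Units.mk0 φ hφ0) * goIncl ⇑Q G := by
        apply Subtype.ext
        apply gamL_ext
        · rw [Subgroup.coe_mul, Subgroup.coe_mul, SemidirectProduct.mul_right,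
            SemidirectProduct.mul_right, scalHom_right, goIncl_coe]
          simpa using hτ
        · intro v
          rw [Subgroup.coe_mul, Subgroup.coe_mul, semiFun_mul, semiFun_mul, semiFun_scalHom,
            semiFun_goIncl, hφ]
          rfl
      rw [pow_two, ← map_mul, this, map_mul, cGam_scalHom, one_mul]
  have h4 : cGam ⇑Q y ^ 4 = 1 := by
    have : cGam ⇑Q y ^ 4 = (cGam ⇑Q y ^ 2) ^ 2 := by rw [← pow_mul]
    rw [this]
    rcases hsq with h | h
    · rw [h, one_pow]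
    · rw [h, hG2]
  have h5 : orderOf (cGam ⇑Q y) ∣ 4 := orderOf_dvd_of_pow_eq_one h4
  have h6 : orderOf (cGam ⇑Q y) = 1 := by
    have h7 : (orderOf (cGam ⇑Q y)).Coprime (2 ^ 2) := Nat.Coprime.pow_right 2 hodd
    exact Nat.Coprime.eq_one_of_dvd h7 (by simpa using h5)
  exact orderOf_eq_one_iff.1 h6

theorem eq_one_of_sq {K : Type*} [Group K] (M : Subgroup K) (hcop : (Nat.card M).Coprime 2)
    {k : K} (hk : k ∈ M) (h : k * k = 1) : k = 1 := by
  have h1 : orderOf k ∣ 2 := orderOf_dvd_of_pow_eq_one (by rw [pow_two, h])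
  have h2 : orderOf k ∣ Nat.card M := Subgroup.orderOf_dvd_natCard M hk
  have h3 : orderOf k = 1 := Nat.eq_one_of_dvd_coprimes hcop h2 h1
  exact orderOf_eq_one_iff.1 h3

theorem exists_sqrt {K : Type*} [Group K] (M : Subgroup K) (hcop : (Nat.card M).Coprime 2)
    {k : K} (hk : k ∈ M) : ∃ k' ∈ M, k' * k' = k := by
  have hodd : Odd (Nat.card M) := Nat.Coprime.odd_of_right hcop
  obtain ⟨j, hj⟩ := hodd
  refine ⟨k ^ (j + 1), pow_mem hk _, ?_⟩
  have h1 : k ^ Nat.card M = 1 := by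
    have := pow_card_eq_one' (G := ↥M) (x := ⟨k, hk⟩)
    exact congrArg Subtype.val this
  rw [← pow_add]
  have : j + 1 + (j + 1) = Nat.card M + 1 := by omega
  rw [this, pow_add, h1, one_mul, pow_one]

/-- the subgroup of isometries commuting with a linear map -/
def commG (g : (ι → F) ≃ₗ[F] (ι → F)) : Subgroup ↥(OG Q) where
  carrier := {s | ∀ v, s.1 (g v) = g (s.1 v)}
  mul_mem' := by
    intro a b ha hb v
    change a.1 (b.1 (g v)) = g (a.1 (b.1 v))
    rw [hb, ha]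
  one_mem' := fun v => rfl
  inv_mem' := by
    intro a ha v
    have h1 := ha ((a⁻¹).1 v)
    rw [OG_apply_inv_apply] at h1
    rw [← h1, OG_inv_apply_apply]

/-- the projection `Ω(Q) → PΩ(Q)`, from the abstract side -/
noncomputable def pm : ↥(commutator ↥(OG Q)) →* Cfsg.POmega F ⇑Q :=
  (QuotientGroup.mk' _).comp (omegaEquiv Q).symm.toMonoidHom

theorem pm_apply (t : ↥(commutator ↥(OG Q))) :
    pm Q t = QuotientGroup.mk ((omegaEquiv Q).symm t) := rfl

theorem symm_mulVec (t : ↥(commutator ↥(OG Q))) (u : ι → F) :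
    ((((omegaEquiv Q).symm t).1.1 : GL ι F) : Matrix ι ι F) *ᵥ u = t.1.1 u := by
  rw [← omegaEquiv_apply, MulEquiv.apply_symm_apply]

/-- the element of `ΓO` of an isometry -/
noncomputable def ogIncl : ↥(OG Q) →* ↥(GamO ⇑Q) :=
  (goIncl ⇑Q).comp ((oIncl ⇑Q).comp (isoEquiv Q).symm.toMonoidHom)

theorem semiFun_ogIncl (t : ↥(OG Q)) (v : ι → F) : semiFun (ogIncl Q t).1 v = t.1 v := by
  change semiFun (goIncl ⇑Q (oIncl ⇑Q ((isoEquiv Q).symm t))).1 v = t.1 v
  rw [semiFun_goIncl, linOf_apply]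
  exact isoEquiv_symm_mulVec Q t v

theorem ogIncl_right (t : ↥(OG Q)) : (ogIncl Q t).1.right = 1 := rfl

theorem cGam_ogIncl_pm (t : ↥(OG Q)) (x : ↥(commutator ↥(OG Q)))
    (hx : t * x.1 * t⁻¹ ∈ commutator ↥(OG Q)) :
    cGam ⇑Q (ogIncl Q t) (pm Q x) = pm Q ⟨t * x.1 * t⁻¹, hx⟩ := by
  rw [pm_apply, pm_apply, cGam_mk]
  congr 1
  apply Subtype.ext
  apply Subtype.ext
  rw [charRestrict_apply_coe, actO_apply_coe]
  apply Units.ext
  apply Matrix.mulVec_injective
  funext v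
  have h1 := actGL_mulVec (ogIncl Q t).1 ((omegaEquiv Q).symm x).1.1 ((t⁻¹).1 v)
  rw [semiFun_ogIncl, OG_apply_inv_apply, semiFun_ogIncl, symm_mulVec] at h1
  rw [h1, symm_mulVec]
  rfl

/-- GH1 -/
theorem glue_HI (h2 : (2 : F) ≠ 0) (hQ : (polarBilin Q).Nondegenerate) (hd : 7 ≤ Fintype.card ι)
    (G : ↥(Cfsg.Geo.quadSimilarityGroup ⇑Q)) (h : AHI Q (linOf G.1)) :
    HI 2 (cGam ⇑Q (goIncl ⇑Q G)) := by
  intro M hM hcop hinv
  set L₀ : Subgroup ↥(OG Q) :=
    ((M.comap (pm Q)).map (commutator ↥(OG Q)).subtype) ⊓ commG Q (linOf G.1) with hL₀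
  have hexp : ∀ x ∈ L₀, x * x = 1 := by
    apply h L₀
    · intro x hx
      exact hx.2
    · rintro t ht x ⟨⟨x', hx', rfl⟩, hx2⟩
      have htm : t ∈ commG Q (linOf G.1) := ht
      have hn : t * x'.1 * t⁻¹ ∈ commutator ↥(OG Q) :=
        (inferInstance : (commutator ↥(OG Q)).Normal).conj_mem _ x'.2 t
      refine ⟨⟨⟨t * x'.1 * t⁻¹, hn⟩, ?_, rfl⟩, (commG Q (linOf G.1)).mul_mem ((commG Q (linOf G.1)).mul_mem htm hx2)
        ((commG Q (linOf G.1)).inv_mem htm)⟩
      change pm Q ⟨t * x'.1 * t⁻¹, hn⟩ ∈ M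
      rw [← cGam_ogIncl_pm]
      apply hinv _ _ _ hx'
      rw [← map_mul, ← map_mul]
      congr 1
      apply Subtype.ext
      apply gamL_ext
      · rfl
      · intro v
        rw [Subgroup.coe_mul, Subgroup.coe_mul, semiFun_mul, semiFun_mul, semiFun_ogIncl,
          semiFun_ogIncl, semiFun_goIncl, semiFun_goIncl, ht]
    · rintro ν ⟨⟨ν', hν', rfl⟩, -⟩ hνν
      have h1 : pm Q ν' = 1 := by
        apply eq_one_of_sq M hcop hν'
        rw [← map_mul]
        have : ν' * ν' = 1 := Subtype.ext hνν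
        rw [this, map_one]
      rw [pm_apply, QuotientGroup.eq_one_iff] at h1
      obtain ⟨c, -, hc⟩ := center_Omega_mulVec Q hQ hd _ h1
      refine ⟨c, fun v => ?_⟩
      rw [← hc, symm_mulVec]
      rfl
  rw [eq_bot_iff]
  intro k hk
  rw [Subgroup.mem_bot]
  obtain ⟨k', hk', rfl⟩ := exists_sqrt M hcop hk
  obtain ⟨s', rfl⟩ := QuotientGroup.mk_surjective k'
  obtain ⟨c, hc, h3⟩ := act_of_fixed Q hQ hd (goIncl ⇑Q G) s' (hM hk')
  have h4 : ∀ v, linOf G.1 (((s'.1.1 : GL ι F) : Matrix ι ι F) *ᵥ v) =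
      c • (((s'.1.1 : GL ι F) : Matrix ι ι F) *ᵥ (linOf G.1 v)) := by
    intro v
    have := actGL_mulVec (goIncl ⇑Q G).1 s'.1.1 v
    rw [semiFun_goIncl, semiFun_goIncl, h3] at this
    exact this.symm
  have hmem : (omegaEquiv Q (s' * s')).1 ∈ L₀ := by
    refine ⟨⟨omegaEquiv Q (s' * s'), ?_, rfl⟩, ?_⟩
    · change pm Q (omegaEquiv Q (s' * s')) ∈ M
      rw [pm_apply, MulEquiv.symm_apply_apply]
      exact hk
    · intro v
      rw [map_mul]
      change (omegaEquiv Q s').1.1 ((omegaEquiv Q s').1.1 (linOf G.1 v)) =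
        linOf G.1 ((omegaEquiv Q s').1.1 ((omegaEquiv Q s').1.1 v))
      simp only [omegaEquiv_apply]
      rw [h4, h4, Matrix.mulVec_smul, smul_smul, hc, one_smul]
  have h5 := hexp _ hmem
  have h6 : omegaEquiv Q (s' * s') * omegaEquiv Q (s' * s') = 1 := Subtype.ext h5
  rw [← map_mul, MulEquiv.map_eq_one_iff] at h6
  apply eq_one_of_sq M hcop hk
  rw [← QuotientGroup.mk_mul, ← QuotientGroup.mk_mul, h6]
  rfl

end glue

end Cfsg.Agent.Lib.Helper95.BalOM
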