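import Cfsg.Agent.Lib.Helper95.BalOM.Cls
import Cfsg.Agent.Lib.Helper64.BalOMC1H
import Cfsg.Agent.Lib.Helper64.BalOMC1R
import Cfsg.Agent.Lib.Helper62.BalOMC2
import Cfsg.Agent.Lib.Helper49.HypPairs
import Cfsg.Agent.S2696

set_option autoImplicit false

/-! T3 of the ladder BAL-OM: involutions outside `Inndiag`. -/

namespace Cfsg.Agent.Lib.Helper95.BalOM

open QuadraticMap Module Matrix Cfsg.Agent.Lib.Helper49 Cfsg.Agent.Lib.Helper95 Cfsg.Agent.Lib.Helper95.AutO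
open Cfsg.Agent.Lib.Helper64.BalOM (caseI_AHI caseI_AR)
open Cfsg.Agent.Lib.Helper62.BalOM (caseII)

variable {F : Type*} [Field F] [Fintype F]

theorem invol_case_qf (h2 : (2 : F) ≠ 0) {m : ℕ} (hm : 3 ≤ m) (a b : F)
    (hab : ∀ z₁ z₂ : F, z₁ ^ 2 + a * z₁ * z₂ + b * z₂ ^ 2 = 0 → z₁ = 0 ∧ z₂ = 0)
    (x : MulAut (Cfsg.POmega F ⇑(minusQF m F a b))) (hord : orderOf x = 2)
    (hnot : ¬ ∃ g : GL ((Fin m ⊕ Fin m) ⊕ Fin 2) F,
      g ∈ Cfsg.Geo.quadSimilarityGroup (F := F) ⇑(minusQF m F a b) ∧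
      Cfsg.PreservesSingularClassesMinus m a b
        (g : Matrix ((Fin m ⊕ Fin m) ⊕ Fin 2) ((Fin m ⊕ Fin m) ⊕ Fin 2) F) ∧
      Cfsg.IsInducedBySemilinearPOmega ⇑(minusQF m F a b) g (RingEquiv.refl F) x) :
    HI 2 x ∧ HII 2 x := by
  have hQ := minusQF_nondegenerate m F a b (minus_disc_ne_zero a b hab)
  have htop : Cfsg.gammaPOmega F ⇑(minusQF m F a b) = ⊤ := by
    rw [minusQF_coe]
    exact Cfsg.Agent.S2696.result hm a b hab
  have hcard : Fintype.card ((Fin m ⊕ Fin m) ⊕ Fin 2) = 2 * m + 2 := by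
    simp only [Fintype.card_sum, Fintype.card_fin]; ring
  have hd7 : 7 ≤ Fintype.card ((Fin m ⊕ Fin m) ⊕ Fin 2) := by omega
  have hfr : finrank F ((Fin m ⊕ Fin m) ⊕ Fin 2 → F) = 2 * m + 2 := by
    rw [Module.finrank_fintype_fun_eq_card, hcard]
  obtain ⟨G, rfl, hcase⟩ := cls h2 hm a b hab htop x hord hnot
  have hG2 : cGam ⇑(minusQF m F a b) (goIncl ⇑(minusQF m F a b) G) ^ 2 = 1 := by
    have := pow_orderOf_eq_one (cGam ⇑(minusQF m F a b) (goIncl ⇑(minusQF m F a b) G))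
    rwa [hord] at this
  have key : AHI (minusQF m F a b) (linOf G.1) ∧ AR (minusQF m F a b) (linOf G.1) := by
    rcases hcase with ⟨h1, h3, h4, h5⟩ | ⟨c, hc, h3, h4⟩
    · let g : ↥(OG (minusQF m F a b)) := ⟨linOf G.1, h1⟩
      have hg : g * g = 1 := by
        apply Subtype.ext
        ext v : 1
        exact h3 v
      have hp : finrank F (eigP g.1) ≠ 2 := by
        intro h
        have h4' : Odd (finrank F (eigP g.1)) := h4
        rw [h] at h4'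
        exact absurd h4' (by decide)
      have hm' : finrank F (eigM g.1) ≠ 2 := by
        intro h
        have h5' : Odd (finrank F (eigM g.1)) := h5
        rw [h] at h5'
        exact absurd h5' (by decide)
      exact ⟨caseI_AHI h2 hQ g hg hp hm', caseI_AR h2 hQ (by omega) g hg hp hm'⟩
    · exact caseII h2 hQ (by omega) (linOf G.1) c hc h3 h4
  exact ⟨glue_HI _ h2 hQ hd7 G key.1, glue_HII _ h2 hQ hd7 htop G hG2 key.2⟩

/-- T3 -/
theorem invol_case (h2 : (2 : F) ≠ 0) {m : ℕ} (hm : 3 ≤ m) (a b : F)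
    (hab : ∀ z₁ z₂ : F, z₁ ^ 2 + a * z₁ * z₂ + b * z₂ ^ 2 = 0 → z₁ = 0 ∧ z₂ = 0)
    (x : MulAut (Cfsg.POmega F (Cfsg.quadFormMinus m F a b))) (hord : orderOf x = 2)
    (hnot : ¬ Cfsg.IsInnerDiagonalAutPOmegaMinus m a b x) : HI 2 x ∧ HII 2 x := by
  have key : ∀ (Qf : (((Fin m ⊕ Fin m) ⊕ Fin 2) → F) → F), Qf = Cfsg.quadFormMinus m F a b →
      (∀ x : MulAut (Cfsg.POmega F Qf), orderOf x = 2 →
        (¬ ∃ g : GL ((Fin m ⊕ Fin m) ⊕ Fin 2) F,
          g ∈ Cfsg.Geo.quadSimilarityGroup (F := F) Qf ∧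
          Cfsg.PreservesSingularClassesMinus m a b
            (g : Matrix ((Fin m ⊕ Fin m) ⊕ Fin 2) ((Fin m ⊕ Fin m) ⊕ Fin 2) F) ∧
          Cfsg.IsInducedBySemilinearPOmega Qf g (RingEquiv.refl F) x) → HI 2 x ∧ HII 2 x) →
      HI 2 x ∧ HII 2 x := by
    rintro _ rfl h
    exact h x hord hnot
  exact key _ (minusQF_coe m F a b) (fun x hord hnot => invol_case_qf h2 hm a b hab x hord hnot)

end Cfsg.Agent.Lib.Helper95.BalOM
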