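import Cfsg.Agent.Lib.Helper95.BalOM.Core

set_option autoImplicit false

/-! Transport of the two local-balance hypotheses `HI`, `HII` along an isomorphism of groups. -/

namespace Cfsg.Agent.Lib.Helper95.BalOM



variable {K K' : Type*} [Group K] [Group K']

/-- transport of an automorphism along an isomorphism -/
def tr (ψ : K ≃* K') (β : MulAut K) : MulAut K' := (ψ.symm.trans β).trans ψ

theorem tr_apply (ψ : K ≃* K') (β : MulAut K) (k : K') : tr ψ β k = ψ (β (ψ.symm k)) := rfl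

theorem tr_apply' (ψ : K ≃* K') (β : MulAut K) (k : K) : tr ψ β (ψ k) = ψ (β k) := by
  rw [tr_apply, ψ.symm_apply_apply]

theorem tr_mul (ψ : K ≃* K') (α β : MulAut K) : tr ψ (α * β) = tr ψ α * tr ψ β := by
  ext k
  simp [tr_apply, MulAut.mul_apply]

theorem tr_one (ψ : K ≃* K') : tr ψ (1 : MulAut K) = 1 := by
  ext k
  simp [tr_apply]

theorem tr_symm_tr (ψ : K ≃* K') (β : MulAut K) : tr ψ.symm (tr ψ β) = β := by
  ext k
  simp [tr_apply]

theorem tr_tr_symm (ψ : K ≃* K') (β : MulAut K') : tr ψ (tr ψ.symm β) = β := by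
  ext k
  simp [tr_apply]

/-- transport as an isomorphism of automorphism groups -/
def trEquiv (ψ : K ≃* K') : MulAut K ≃* MulAut K' where
  toFun := tr ψ
  invFun := tr ψ.symm
  left_inv := tr_symm_tr ψ
  right_inv := tr_tr_symm ψ
  map_mul' := tr_mul ψ

theorem orderOf_tr (ψ : K ≃* K') (β : MulAut K) : orderOf (tr ψ β) = orderOf β :=
  (trEquiv ψ).orderOf_eq β

theorem mem_fixS_tr (ψ : K ≃* K') (β : MulAut K) (k : K) : ψ k ∈ fixS (tr ψ β) ↔ k ∈ fixS β := by
  rw [mem_fixS, mem_fixS, tr_apply']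
  exact ψ.injective.eq_iff

theorem fixS_tr (ψ : K ≃* K') (β : MulAut K) : fixS (tr ψ β) = (fixS β).map ψ.toMonoidHom := by
  ext k
  constructor
  · intro hk
    refine ⟨ψ.symm k, (mem_fixS_tr ψ β _).1 (by simpa using hk), by simp⟩
  · rintro ⟨x, hx, rfl⟩
    exact (mem_fixS_tr ψ β x).2 hx

theorem card_fixS_tr (ψ : K ≃* K') (β : MulAut K) :
    Nat.card ↥(fixS (tr ψ β)) = Nat.card ↥(fixS β) := by
  rw [fixS_tr, Subgroup.card_map_of_injective ψ.injective]

theorem fixS_ne_bot_of_tr (ψ : K ≃* K') (β : MulAut K) (h : fixS (tr ψ β) ≠ ⊥) : fixS β ≠ ⊥ := by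
  intro h0
  apply h
  rw [fixS_tr, h0, Subgroup.map_bot]

theorem HI_of_tr (ψ : K ≃* K') (p : ℕ) (β : MulAut K) (h : HI p (tr ψ β)) : HI p β := by
  intro M hM hc hinv
  have h1 : M.map ψ.toMonoidHom = ⊥ := by
    apply h
    · rintro _ ⟨k, hk, rfl⟩
      exact (mem_fixS_tr ψ β k).2 (hM hk)
    · rw [Subgroup.card_map_of_injective ψ.injective]
      exact hc
    · rintro α hα _ ⟨k, hk, rfl⟩
      refine ⟨tr ψ.symm α k, hinv _ ?_ k hk, ?_⟩
      · have h2 : tr ψ.symm (α * tr ψ β) = tr ψ.symm (tr ψ β * α) := by rw [hα]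
        rwa [tr_mul, tr_mul, tr_symm_tr] at h2
      · show ψ (tr ψ.symm α k) = α (ψ k)
        rw [tr_apply]
        simp
  exact (Subgroup.map_eq_bot_iff_of_injective M ψ.injective).1 h1

theorem HII_of_tr (ψ : K ≃* K') (p : ℕ) (β : MulAut K) (h : HII p (tr ψ β)) : HII p β := by
  intro α hα hc
  have h1 : tr ψ α = 1 := by
    apply h
    · intro k hk
      have h2 : ψ.symm k ∈ fixS β := by
        rw [← mem_fixS_tr ψ]
        simpa using hk
      rw [tr_apply, hα _ h2]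
      simp
    · rw [orderOf_tr]
      exact hc
  have h2 := congrArg (tr ψ.symm) h1
  rwa [tr_symm_tr, tr_one] at h2

end Cfsg.Agent.Lib.Helper95.BalOM
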